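import Mathlib

/-! S3313 farm, piece A5: three finite facts on `A_5`. -/

set_option autoImplicit false

namespace Cfsg.Agent.Lib.Helper86.J2Ord

/-- [A5] -/
theorem a5_15 : Nat.card {k : alternatingGroup (Fin 5) // k * k = 1 ∧ k ≠ 1} = 15 := by
  rw [Nat.card_eq_fintype_card]
  decide +kernel

theorem a5_5_aux : ∀ k : alternatingGroup (Fin 5), k * k = 1 → k ≠ 1 →
    ∃ k' : alternatingGroup (Fin 5), k' * k' = 1 ∧ k' ≠ 1 ∧ (k * k') ^ 5 = 1 ∧ k * k' ≠ 1 := by
  decide +kernel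

/-- [A5] -/
theorem a5_5 : ∀ k : alternatingGroup (Fin 5), k * k = 1 → k ≠ 1 →
    ∃ k' : alternatingGroup (Fin 5), k' * k' = 1 ∧ k' ≠ 1 ∧ orderOf (k * k') = 5 := by
  intro k h1 h2
  obtain ⟨k', a, b, c, d⟩ := a5_5_aux k h1 h2
  have : Fact (Nat.Prime 5) := ⟨by norm_num⟩
  exact ⟨k', a, b, orderOf_eq_prime c d⟩

theorem a5_card : Nat.card (alternatingGroup (Fin 5)) = 60 := by
  rw [Nat.card_eq_fintype_card]
  decide +kernel

theorem a5_odd_iff (x : alternatingGroup (Fin 5)) : Odd (orderOf x) ↔ x ^ 15 = 1 := by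
  constructor
  · intro h
    have h1 : orderOf x ∣ 4 * 15 := by
      have := orderOf_dvd_natCard x
      rw [a5_card] at this
      exact this
    have h2 : (orderOf x).Coprime 4 := by
      have : (orderOf x).Coprime 2 := Nat.coprime_two_right.2 h
      exact Nat.Coprime.pow_right 2 this
    exact orderOf_dvd_iff_pow_eq_one.1 (h2.dvd_of_dvd_mul_left h1)
  · intro h
    have h1 : orderOf x ∣ 15 := orderOf_dvd_of_pow_eq_one h
    exact Odd.of_dvd_nat (by decide) h1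

theorem a5_195_aux : Fintype.card {p : alternatingGroup (Fin 5) × alternatingGroup (Fin 5) //
    p.1 * p.1 = 1 ∧ p.1 ≠ 1 ∧ p.2 * p.2 = 1 ∧ (p.1 * p.2) ^ 15 = 1} = 195 := by
  decide +kernel

/-- [A5] -/
theorem a5_195 : Nat.card {p : alternatingGroup (Fin 5) × alternatingGroup (Fin 5) //
    p.1 * p.1 = 1 ∧ p.1 ≠ 1 ∧ p.2 * p.2 = 1 ∧ Odd (orderOf (p.1 * p.2))} = 195 := by
  simp only [a5_odd_iff]
  rw [Nat.card_eq_fintype_card]
  exact a5_195_aux

end Cfsg.Agent.Lib.Helper86.J2Ord
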