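import Mathlib
import Cfsg.Prelude.Def_TwoFusion
import Cfsg.Agent.Lib.Helper29.QuatFactor
import Cfsg.Agent.Lib.Helper86.J2Ord.A5

/-! S3313 farm, piece B: the count in `C_G(t) = V × B`. -/

set_option autoImplicit false

namespace Cfsg.Agent.Lib.Helper86.J2Ord

variable {G : Type*} [Group G]

theorem order_two_iff (x : G) : orderOf x = 2 ↔ x * x = 1 ∧ x ≠ 1 := by
  constructor
  · intro h
    refine ⟨?_, ?_⟩
    · have := pow_orderOf_eq_one x
      rwa [h, pow_two] at this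
    · rintro rfl
      simp at h
  · rintro ⟨h1, h2⟩
    have : Fact (Nat.Prime 2) := ⟨Nat.prime_two⟩
    exact orderOf_eq_prime (by rw [pow_two, h1]) h2

theorem order_two_of_isConj {x y : G} (h : IsConj x y) (hx : orderOf x = 2) : orderOf y = 2 := by
  obtain ⟨c, rfl⟩ := isConj_iff.1 h
  rw [order_two_iff] at hx ⊢
  obtain ⟨h1, h2⟩ := hx
  refine ⟨?_, ?_⟩
  · calc c * x * c⁻¹ * (c * x * c⁻¹) = c * (x * x) * c⁻¹ := by group
      _ = 1 := by rw [h1]; group
  · intro h3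
    apply h2
    calc x = c⁻¹ * (c * x * c⁻¹) * c := by group
      _ = 1 := by rw [h3]; group

/-- an involution inverting `y` centralises every involution in `zpowers y`. -/
theorem commute_of_invert {u y t : G} (hu : u * y * u⁻¹ = y⁻¹) (ht : t * t = 1)
    (h : t ∈ Subgroup.zpowers y) : u * t = t * u := by
  obtain ⟨n, rfl⟩ := Subgroup.mem_zpowers_iff.1 h
  have h1 : u * y ^ n * u⁻¹ = (y ^ n)⁻¹ := by
    rw [← conj_zpow, hu, inv_zpow]
  have h2 : (y ^ n)⁻¹ = y ^ n := inv_eq_of_mul_eq_one_left ht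
  rw [h2] at h1
  calc u * y ^ n = u * y ^ n * u⁻¹ * u := by group
    _ = y ^ n * u := by rw [h1]

section

variable (z t : G) (ht : orderOf t = 2) (hzt : ¬ IsConj z t)
    (V B : Subgroup G) (hVB : Cfsg.IsInternalDirectProduct V B (Subgroup.centralizer ({t} : Set G)))
    (hV2 : ∀ v ∈ V, v ^ 2 = 1) (htV : t ∈ V)
    (hBz : ∀ x ∈ B, orderOf x = 2 → IsConj x z)
    (hCt : ∀ x ∈ Subgroup.centralizer ({t} : Set G), orderOf x = 2 → x ∉ B → IsConj x t)

include ht hVB htV hBz hCt in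
theorem count_fwd (u b : G) (hu : u ∈ B) (hb : b ∈ B) (hu2 : u * u = 1) (hu1 : u ≠ 1)
    (hb2 : b * b = 1) (hodd : Odd (orderOf (u * b))) :
    IsConj z u ∧ IsConj t (t * b) ∧ t ∈ Subgroup.zpowers (u * (t * b)) := by
  obtain ⟨hVC, hBC, hcomm, hinf, hsup⟩ := hVB
  obtain ⟨ht2, ht1⟩ := (order_two_iff t).1 ht
  have htB : t ∉ B := by
    intro h
    have : t ∈ V ⊓ B := ⟨htV, h⟩
    rw [hinf, Subgroup.mem_bot] at this
    exact ht1 this
  refine ⟨(hBz u hu ((order_two_iff u).2 ⟨hu2, hu1⟩)).symm, ?_, ?_⟩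
  · apply IsConj.symm
    apply hCt
    · exact mul_mem (hVC htV) (hBC hb)
    · rw [order_two_iff]
      refine ⟨?_, ?_⟩
      · calc t * b * (t * b) = t * (b * t) * b := by group
          _ = t * (t * b) * b := by rw [hcomm t htV b hb]
          _ = (t * t) * (b * b) := by group
          _ = 1 := by rw [ht2, hb2, one_mul]
      · intro h
        apply htB
        have : t = b⁻¹ := eq_inv_of_mul_eq_one_left h
        rw [this]; exact inv_mem hb
    · intro h
      apply htB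
      have : t = t * b * b⁻¹ := by group
      rw [this]; exact mul_mem h (inv_mem hb)
  · have e : u * (t * b) = t * (u * b) := by
      rw [← mul_assoc, ← hcomm t htV u hu, mul_assoc]
    have hc : Commute t (u * b) := hcomm t htV (u * b) (mul_mem hu hb)
    obtain ⟨m, hm⟩ := hodd
    refine ⟨(orderOf (u * b) : ℤ), ?_⟩
    show (u * (t * b)) ^ (orderOf (u * b) : ℤ) = t
    rw [zpow_natCast, e, hc.mul_pow, pow_orderOf_eq_one, mul_one, hm, pow_succ, pow_mul, pow_two, ht2,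
      one_pow, one_mul]

include ht hzt hVB hV2 htV hBz hCt in
theorem count_bwd (hz : orderOf z = 2) (u v : G) (h1 : IsConj z u) (h2 : IsConj t v)
    (h3 : t ∈ Subgroup.zpowers (u * v)) :
    u ∈ B ∧ ∃ b ∈ B, v = t * b ∧ u * u = 1 ∧ u ≠ 1 ∧ b * b = 1 ∧ Odd (orderOf (u * b)) := by
  have hVB' := hVB
  obtain ⟨hVC, hBC, hcomm, hinf, hsup⟩ := hVB
  obtain ⟨ht2, ht1⟩ := (order_two_iff t).1 ht
  have hu := order_two_of_isConj h1 hz
  have hv := order_two_of_isConj h2 ht
  obtain ⟨hu2, hu1⟩ := (order_two_iff u).1 hu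
  obtain ⟨hv2, hv1⟩ := (order_two_iff v).1 hv
  have hui : u⁻¹ = u := inv_eq_of_mul_eq_one_left hu2
  have hvi : v⁻¹ = v := inv_eq_of_mul_eq_one_left hv2
  have huC : u ∈ Subgroup.centralizer ({t} : Set G) := by
    rw [Subgroup.mem_centralizer_singleton_iff]
    apply commute_of_invert (y := u * v) _ ht2 h3
    rw [mul_inv_rev, hui, hvi, ← mul_assoc, hu2, one_mul]
  have hvC : v ∈ Subgroup.centralizer ({t} : Set G) := by
    rw [Subgroup.mem_centralizer_singleton_iff]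
    apply commute_of_invert (y := u * v) _ ht2 h3
    rw [mul_inv_rev, hui, hvi, mul_assoc, mul_assoc, hv2, mul_one]
  have huB : u ∈ B := by
    by_contra h
    exact hzt (h1.trans (hCt u huC hu h))
  have hvB : v ∉ B := by
    intro h
    exact hzt ((h2.trans (hBz v h hv)).symm)
  obtain ⟨w, hw, b, hb, rfl⟩ := Cfsg.Agent.Lib.Helper29.QuatFactor.decomp hVB' hvC
  have hw2 : w * w = 1 := by rw [← pow_two]; exact hV2 w hw
  have hb2 : b * b = 1 := by
    have : w * b * (w * b) = (w * w) * (b * b) := by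
      calc w * b * (w * b) = w * (b * w) * b := by group
        _ = w * (w * b) * b := by rw [hcomm w hw b hb]
        _ = (w * w) * (b * b) := by group
    rw [this, hw2, one_mul] at hv2
    exact hv2
  have e : u * (w * b) = w * (u * b) := by
    rw [← mul_assoc, ← hcomm w hw u huB, mul_assoc]
  have hc : Commute w (u * b) := hcomm w hw (u * b) (mul_mem huB hb)
  obtain ⟨n, hn⟩ := Subgroup.mem_zpowers_iff.1 h3
  rw [e, hc.mul_zpow] at hn
  have hmem : (u * b) ^ n ∈ V ⊓ B := by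
    refine ⟨?_, zpow_mem (mul_mem huB hb) n⟩
    have : (u * b) ^ n = (w ^ n)⁻¹ * t := by rw [← hn]; group
    rw [this]
    exact V.mul_mem (V.inv_mem (V.zpow_mem hw n)) htV
  rw [hinf, Subgroup.mem_bot] at hmem
  rw [hmem, mul_one] at hn
  have hnodd : Odd n := by
    by_contra hne
    rw [Int.not_odd_iff_even] at hne
    obtain ⟨k, hk⟩ := hne
    apply ht1
    rw [← hn, hk, ← two_mul, zpow_mul, zpow_two, hw2, one_zpow]
  have hwt : w = t := by
    obtain ⟨k, hk⟩ := hnodd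
    rw [hk, zpow_add, zpow_one, zpow_mul, zpow_two, hw2, one_zpow, one_mul] at hn
    exact hn
  have hodd : Odd (orderOf (u * b)) := by
    have h4 : ((orderOf (u * b) : ℕ) : ℤ) ∣ n := orderOf_dvd_iff_zpow_eq_one.2 hmem
    obtain ⟨c, hc'⟩ := h4
    rw [hc'] at hnodd
    exact (Int.odd_coe_nat _).1 (Int.Odd.of_mul_left hnodd)
  exact ⟨huB, b, hb, by rw [hwt], hu2, hu1, hb2, hodd⟩

end

/-- [B] the count in `C_G(t) = V × B`. -/
theorem count_t [Finite G] (z t : G) (ht : orderOf t = 2) (hzt : ¬ IsConj z t)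
    (V B : Subgroup G) (hVB : Cfsg.IsInternalDirectProduct V B (Subgroup.centralizer ({t} : Set G)))
    (hV2 : ∀ v ∈ V, v ^ 2 = 1) (htV : t ∈ V) (hB : Nonempty (↥B ≃* alternatingGroup (Fin 5)))
    (hBz : ∀ x ∈ B, orderOf x = 2 → IsConj x z)
    (hCt : ∀ x ∈ Subgroup.centralizer ({t} : Set G), orderOf x = 2 → x ∉ B → IsConj x t) :
    Nat.card {p : G × G // IsConj z p.1 ∧ IsConj t p.2 ∧ t ∈ Subgroup.zpowers (p.1 * p.2)} = 195 := by
  obtain ⟨e⟩ := hB
  -- `z` is an involution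
  have hz : orderOf z = 2 := by
    have hne : Nonempty {k : alternatingGroup (Fin 5) // k * k = 1 ∧ k ≠ 1} := by
      by_contra h
      rw [not_nonempty_iff] at h
      have := a5_15
      rw [Nat.card_of_isEmpty] at this
      omega
    obtain ⟨k, hk1, hk2⟩ := hne
    have h1 : orderOf ((e.symm k : B) : G) = 2 := by
      rw [Subgroup.orderOf_coe, MulEquiv.orderOf_eq, order_two_iff]
      exact ⟨hk1, hk2⟩
    exact order_two_of_isConj (hBz _ (e.symm k).2 h1) h1
  have tr1 : ∀ a : alternatingGroup (Fin 5), a * a = 1 ↔ ((e.symm a : B) : G) * (e.symm a : B) = 1 := by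
    intro a
    rw [← Subgroup.coe_mul, ← map_mul, OneMemClass.coe_eq_one, MulEquiv.map_eq_one_iff]
  have tr2 : ∀ a : alternatingGroup (Fin 5), a = 1 ↔ ((e.symm a : B) : G) = 1 := by
    intro a
    rw [OneMemClass.coe_eq_one, MulEquiv.map_eq_one_iff]
  have tr3 : ∀ a b : alternatingGroup (Fin 5),
      orderOf (((e.symm a : B) : G) * (e.symm b : B)) = orderOf (a * b) := by
    intro a b
    rw [← Subgroup.coe_mul, ← map_mul, Subgroup.orderOf_coe, MulEquiv.orderOf_eq]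
  rw [← a5_195]
  symm
  refine Nat.card_eq_of_bijective
    (fun p => ⟨(((e.symm p.1.1 : B) : G), t * ((e.symm p.1.2 : B) : G)), ?_⟩) ⟨?_, ?_⟩
  · obtain ⟨⟨a, b⟩, h1, h2, h3, h4⟩ := p
    exact count_fwd z t ht V B hVB htV hBz hCt _ _ (e.symm a).2 (e.symm b).2 ((tr1 a).1 h1)
      (fun h => h2 ((tr2 a).2 h)) ((tr1 b).1 h3) (by rw [tr3]; exact h4)
  · rintro ⟨⟨a, b⟩, ha⟩ ⟨⟨a', b'⟩, ha'⟩ h
    have h' := congrArg Subtype.val h
    simp only [Prod.mk.injEq, mul_right_inj] at h'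
    obtain ⟨h1, h2⟩ := h'
    have e1 : a = a' := e.symm.injective (Subtype.ext h1)
    have e2 : b = b' := e.symm.injective (Subtype.ext h2)
    subst e1 e2
    rfl
  · rintro ⟨⟨u, v⟩, h1, h2, h3⟩
    obtain ⟨huB, b, hb, hv, hu2, hu1, hb2, hodd⟩ :=
      count_bwd z t ht hzt V B hVB hV2 htV hBz hCt hz u v h1 h2 h3
    have ea : ((e.symm (e ⟨u, huB⟩) : B) : G) = u := by rw [MulEquiv.symm_apply_apply]
    have eb : ((e.symm (e ⟨b, hb⟩) : B) : G) = b := by rw [MulEquiv.symm_apply_apply]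
    refine ⟨⟨(e ⟨u, huB⟩, e ⟨b, hb⟩), ?_, ?_, ?_, ?_⟩, ?_⟩
    · rw [tr1, ea]; exact hu2
    · intro h; rw [tr2, ea] at h; exact hu1 h
    · rw [tr1, eb]; exact hb2
    · rw [← tr3, ea, eb]; exact hodd
    · apply Subtype.ext
      simp only [ea, eb, hv]

end Cfsg.Agent.Lib.Helper86.J2Ord
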